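import Mathlib
import Cfsg.Agent.OddCyclic.ZTPsl
import Cfsg.Agent.ClassicalGeometry.PSL2Solvable
import Cfsg.Agent.ClassicalGeometry.PSLTorus
import Cfsg.Agent.LieExceptional.SuzukiTori
set_option linter.all false

/-!
# `PSL(2, F)` on the projective line, `F` a finite field: point stabilisers and tori
-/

set_option autoImplicit false
set_option linter.unusedSectionVars false
set_option linter.style.haveILetI false

namespace Cfsg.Agent.H102.PslAct

open Matrix OnePoint MulAction
open Cfsg.Agent.OddCyclic.Zass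

/-- `PSL(2, F)` -/
abbrev PSL (F : Type*) [Field F] := ProjectiveSpecialLinearGroup (Fin 2) F

variable {F : Type*} [Field F] [DecidableEq F]

/-- the action of `PSL(2, F)` on the projective line -/
@[reducible] noncomputable def act (F : Type*) [Field F] [DecidableEq F] :
    MulAction (PSL F) (OnePoint F) :=
  MulAction.compHom (OnePoint F) (pslHom F)

attribute [local instance] act

theorem smul_def (g : PSL F) (x : OnePoint F) : g • x = pslHom F g x := rfl

theorem mk_smul (A : SpecialLinearGroup (Fin 2) F) (x : OnePoint F) :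
    (QuotientGroup.mk A : PSL F) • x = A.toGL • x := rfl

theorem eq_one_of_smul {g : PSL F} (h : ∀ x : OnePoint F, g • x = x) : g = 1 := by
  apply pslHom_injective
  rw [map_one]
  ext x
  exact h x

/-- an element fixing `∞` is upper triangular -/
theorem exists_mk_of_infty {g : PSL F} (h : g • (∞ : OnePoint F) = ∞) :
    ∃ A : SpecialLinearGroup (Fin 2) F, A 1 0 = 0 ∧ g = QuotientGroup.mk A := by
  obtain ⟨A, rfl⟩ := QuotientGroup.mk_surjective g
  refine ⟨A, ?_, rfl⟩
  rw [mk_smul, smul_infty'] at h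
  by_contra h'
  rw [if_neg h'] at h
  exact OnePoint.coe_ne_infty _ h

theorem mk_smul_infty {A : SpecialLinearGroup (Fin 2) F} (h : A 1 0 = 0) :
    (QuotientGroup.mk A : PSL F) • (∞ : OnePoint F) = ∞ := by
  rw [mk_smul, smul_infty', if_pos h]

theorem exists_smul_infty (x : OnePoint F) : ∃ g : PSL F, g • (∞ : OnePoint F) = x := by
  induction x using OnePoint.rec with
  | infty => exact ⟨1, one_smul _ _⟩
  | coe x =>
    refine ⟨QuotientGroup.mk (mk x (-1) 1 0 (by ring)), ?_⟩
    rw [mk_smul, smul_infty']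
    simp

theorem exists_pair {x y : OnePoint F} (hxy : x ≠ y) :
    ∃ g : PSL F, g • (∞ : OnePoint F) = x ∧ g • ((0 : F) : OnePoint F) = y := by
  obtain ⟨g, hg⟩ := exists_smul_infty x
  have hne : g⁻¹ • y ≠ ∞ := by
    intro h
    rw [inv_smul_eq_iff, hg] at h
    exact hxy h.symm
  obtain ⟨c, hc⟩ : ∃ c : F, g⁻¹ • y = (c : OnePoint F) := by
    generalize g⁻¹ • y = z at hne
    induction z using OnePoint.rec with
    | infty => exact absurd rfl hne
    | coe c => exact ⟨c, rfl⟩
  refine ⟨g * QuotientGroup.mk (up c), ?_, ?_⟩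
  · rw [mul_smul, mk_smul, up_infty, hg]
  · rw [mul_smul, mk_smul, up_smul, zero_add, ← hc, smul_inv_smul]

theorem trans {a b a' b' : OnePoint F} (hab : a ≠ b) (hab' : a' ≠ b') :
    ∃ g : PSL F, g • a = a' ∧ g • b = b' := by
  obtain ⟨g, h1, h2⟩ := exists_pair hab
  obtain ⟨g', h1', h2'⟩ := exists_pair hab'
  refine ⟨g' * g⁻¹, ?_, ?_⟩
  · rw [mul_smul, ← h1, inv_smul_smul, h1']
  · rw [mul_smul, ← h2, inv_smul_smul, h2']

theorem three {g : PSL F} {a b c : OnePoint F} (hab : a ≠ b) (hac : a ≠ c) (hbc : b ≠ c)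
    (ha : g • a = a) (hb : g • b = b) (hc : g • c = c) : g = 1 := by
  obtain ⟨w, h1, h2⟩ := exists_pair hab
  have hcx : ∀ p q : OnePoint F, w • p = q → g • q = q → (w⁻¹ * g * w) • p = p := by
    intro p q h1 h2
    rw [mul_smul, mul_smul, h1, h2, ← h1, inv_smul_smul]
  have hw : w • (w⁻¹ • c) = c := smul_inv_smul _ _
  obtain ⟨z, hz⟩ : ∃ z : F, w⁻¹ • c = (z : OnePoint F) := by
    have hne : w⁻¹ • c ≠ ∞ := by
      intro h
      rw [inv_smul_eq_iff, h1] at h
      exact hac h.symm
    generalize w⁻¹ • c = z at hne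
    induction z using OnePoint.rec with
    | infty => exact absurd rfl hne
    | coe c => exact ⟨c, rfl⟩
  rw [hz] at hw
  have hz0 : z ≠ 0 := by
    rintro rfl
    exact hbc (h2.symm.trans hw)
  obtain ⟨A, hA⟩ := QuotientGroup.mk_surjective (w⁻¹ * g * w)
  have e1 := hcx _ _ h1 ha
  have e2 := hcx _ _ h2 hb
  have e3 := hcx _ _ hw hc
  rw [← hA, mk_smul] at e1 e2 e3
  have e4 := two_fix A e1 e2 hz0 e3
  have e5 : w⁻¹ * g * w = 1 := by
    apply eq_one_of_smul
    intro p
    rw [← hA, mk_smul, e4]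
  have e6 : g = w * (w⁻¹ * g * w) * w⁻¹ := by group
  rw [e6, e5, mul_one, mul_inv_cancel]

/-- an element fixing `∞` and `0` is diagonal -/
theorem exists_mk_of_two {g : PSL F} (h : g • (∞ : OnePoint F) = ∞)
    (h0 : g • ((0 : F) : OnePoint F) = ((0 : F) : OnePoint F)) :
    ∃ A : SpecialLinearGroup (Fin 2) F, A 1 0 = 0 ∧ A 0 1 = 0 ∧ g = QuotientGroup.mk A := by
  obtain ⟨A, hA, rfl⟩ := exists_mk_of_infty h
  refine ⟨A, hA, ?_, rfl⟩
  have hd := det_eq A
  rw [hA, mul_zero, sub_zero] at hd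
  have h11 : A 1 1 ≠ 0 := fun h' => by rw [h', mul_zero] at hd; exact zero_ne_one hd
  rw [mk_smul, smul_coe', hA, mul_zero, zero_add, if_neg h11, mul_zero, zero_add, OnePoint.coe_eq_coe] at h0
  rcases div_eq_zero_iff.1 h0 with h | h
  · exact h
  · exact absurd h h11

theorem comm_two {a b : OnePoint F} (hab : a ≠ b) {g h : PSL F} (hga : g • a = a) (hgb : g • b = b)
    (hha : h • a = a) (hhb : h • b = b) : g * h = h * g := by
  obtain ⟨w, h1, h2⟩ := exists_pair hab
  have hcx : ∀ (g : PSL F) (p q : OnePoint F), w • p = q → g • q = q → (w⁻¹ * g * w) • p = p := by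
    intro g p q h1 h2
    rw [mul_smul, mul_smul, h1, h2, ← h1, inv_smul_smul]
  obtain ⟨A, hA10, hA01, hA⟩ := exists_mk_of_two (hcx g _ _ h1 hga) (hcx g _ _ h2 hgb)
  obtain ⟨B, hB10, hB01, hB⟩ := exists_mk_of_two (hcx h _ _ h1 hha) (hcx h _ _ h2 hhb)
  have hAB : A * B = B * A := by
    apply ext2
    · rw [mul00, mul00, hA01, hB01]; ring
    · rw [mul01, mul01, hA01, hB01]; ring
    · rw [mul10, mul10, hA10, hB10]; ring
    · rw [mul11, mul11, hA10, hB10]; ring
  have e : (w⁻¹ * g * w) * (w⁻¹ * h * w) = (w⁻¹ * h * w) * (w⁻¹ * g * w) := by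
    rw [hA, hB, ← QuotientGroup.mk_mul, ← QuotientGroup.mk_mul, hAB]
  have e1 : w⁻¹ * (g * h) * w = w⁻¹ * (h * g) * w := by
    calc w⁻¹ * (g * h) * w = (w⁻¹ * g * w) * (w⁻¹ * h * w) := by group
      _ = (w⁻¹ * h * w) * (w⁻¹ * g * w) := e
      _ = _ := by group
  exact mul_left_cancel (mul_right_cancel e1)

theorem solv_one (a : OnePoint F) : Group.IsSolvable (stabilizer (PSL F) a) := by
  obtain ⟨w, hw⟩ := exists_smul_infty a
  have h0 : Group.IsSolvable (ClassicalGeometry.PSL2Solvable.borel F) :=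
    ClassicalGeometry.PSL2Solvable.isSolvable_borel
  have h1 : Group.IsSolvable ((ClassicalGeometry.PSL2Solvable.borel F).map
      (QuotientGroup.mk' (Subgroup.center (SpecialLinearGroup (Fin 2) F)))) :=
    Group.isSolvable_of_surjective (MonoidHom.subgroupMap_surjective _ _)
  let f : stabilizer (PSL F) a →* ((ClassicalGeometry.PSL2Solvable.borel F).map
      (QuotientGroup.mk' (Subgroup.center (SpecialLinearGroup (Fin 2) F)))) :=
    { toFun := fun g => ⟨w⁻¹ * g * w, by
        have hg : (g : PSL F) • a = a := g.2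
        have h2 : (w⁻¹ * (g : PSL F) * w) • (∞ : OnePoint F) = ∞ := by
          rw [mul_smul, mul_smul, hw, hg, ← hw, inv_smul_smul]
        obtain ⟨A, hA, hgA⟩ := exists_mk_of_infty h2
        exact ⟨A, ClassicalGeometry.PSL2Solvable.mem_borel_iff.2 hA, hgA.symm⟩⟩
      map_one' := by
        apply Subtype.ext
        show w⁻¹ * 1 * w = 1
        group
      map_mul' := by
        intro g h
        apply Subtype.ext
        show w⁻¹ * (g * h) * w = (w⁻¹ * g * w) * (w⁻¹ * h * w)
        group }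
  have hf : Function.Injective f := by
    intro g h hgh
    have h3 : w⁻¹ * (g : PSL F) * w = w⁻¹ * h * w := congrArg Subtype.val hgh
    exact Subtype.ext (mul_left_cancel (mul_right_cancel h3))
  exact Group.isSolvable_of_isSolvable_injective hf

theorem card_onePoint (F : Type*) [Fintype F] : Nat.card (OnePoint F) = Fintype.card F + 1 := by
  rw [← Nat.card_eq_fintype_card]
  exact Finite.card_option

instance finite_onePoint (F : Type*) [Finite F] : Finite (OnePoint F) :=
  inferInstanceAs (Finite (Option F))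

theorem finite_psl (F : Type*) [Field F] [Finite F] : Finite (PSL F) := by
  classical
  exact Finite.of_injective _ (pslHom_injective (F := F))

/-- the two-point stabilisers -/
theorem card_two [Fintype F] {d : ℕ}
    (hG : Nat.card (PSL F) = (Fintype.card F + 1) * (Fintype.card F * d)) {a b : OnePoint F}
    (hab : a ≠ b) : Nat.card (stabilizer (PSL F) a ⊓ stabilizer (PSL F) b : Subgroup (PSL F)) = d := by
  classical
  haveI := finite_psl F
  haveI := Fintype.ofFinite (PSL F)
  haveI := Fintype.ofFinite (OnePoint F)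
  -- pairs
  let X := {p : OnePoint F × OnePoint F // p.1 ≠ p.2}
  have e : PSL F ≃ X × (stabilizer (PSL F) a ⊓ stabilizer (PSL F) b : Subgroup (PSL F)) := by
    have hex : ∀ p : X, ∃ g : PSL F, g • a = p.1.1 ∧ g • b = p.1.2 := fun p => trans hab p.2
    choose r hr1 hr2 using hex
    exact
      { toFun := fun g => (⟨(g • a, g • b), fun h => hab (smul_left_cancel g h)⟩,
          ⟨(r ⟨(g • a, g • b), fun h => hab (smul_left_cancel g h)⟩)⁻¹ * g, by
            constructor
            · show ((r _)⁻¹ * g) • a = a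
              rw [mul_smul, inv_smul_eq_iff, hr1]
            · show ((r _)⁻¹ * g) • b = b
              rw [mul_smul, inv_smul_eq_iff, hr2]⟩)
        invFun := fun t => r t.1 * t.2
        left_inv := fun g => by
          show r _ * ((r _)⁻¹ * g) = g
          rw [mul_inv_cancel_left]
        right_inv := by
          rintro ⟨p, t, ht1, ht2⟩
          have hta : t • a = a := ht1
          have htb : t • b = b := ht2
          have hp : (⟨((r p * t) • a, (r p * t) • b), fun h => hab (smul_left_cancel _ h)⟩ : X) = p := by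
            apply Subtype.ext
            apply Prod.ext
            · show (r p * t) • a = p.1.1
              rw [mul_smul, hta, hr1]
            · show (r p * t) • b = p.1.2
              rw [mul_smul, htb, hr2]
          apply Prod.ext
          · exact hp
          · apply Subtype.ext
            show (r _)⁻¹ * (r p * t) = t
            rw [hp, inv_mul_cancel_left] }
  have hX : Nat.card X = (Fintype.card F + 1) * Fintype.card F := by
    have e2 : X ≃ Σ x : OnePoint F, {y : OnePoint F // y ≠ x} :=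
      { toFun := fun p => ⟨p.1.1, ⟨p.1.2, Ne.symm p.2⟩⟩
        invFun := fun t => ⟨(t.1, t.2.1), Ne.symm t.2.2⟩
        left_inv := fun p => rfl
        right_inv := fun t => rfl }
    rw [Nat.card_congr e2, Nat.card_sigma]
    have h3 : ∀ x : OnePoint F, Nat.card {y : OnePoint F // y ≠ x} = Fintype.card F := by
      intro x
      have h4 := card_onePoint F
      rw [Nat.card_eq_fintype_card] at h4 ⊢
      rw [Fintype.card_subtype_compl, Fintype.card_subtype_eq, h4]
      rfl
    rw [Finset.sum_congr rfl (fun x _ => h3 x), Finset.sum_const, smul_eq_mul, Finset.card_univ,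
      ← Nat.card_eq_fintype_card, card_onePoint]
  have h1 := Nat.card_congr e
  rw [Nat.card_prod, hX, hG, mul_assoc] at h1
  have h2 : 0 < Fintype.card F + 1 := by omega
  have h3 : 0 < Fintype.card F := Fintype.card_pos
  exact (Nat.eq_of_mul_eq_mul_left h3 (Nat.eq_of_mul_eq_mul_left h2 h1)).symm

/-! ### The non-split torus -/

open Cfsg.Agent.ClassicalGeometry.PSLTorus Cfsg.Agent.ClassicalGeometry.NonsplitTorus

omit [DecidableEq F] in
/-- The non-split torus `⟨a⟩` of `PSL(2, F)` and an involution `s` inverting it; elements conjugating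
one non-identity element of the torus into the torus. -/
theorem exists_torus' [Fintype F] : ∃ a s : PSL F,
    orderOf a = (Fintype.card F + 1) / Nat.gcd 2 (Fintype.card F - 1) ∧ s * s = 1 ∧
    s * a * s = a⁻¹ ∧ s ∉ Subgroup.zpowers a ∧
    ∀ t ∈ Subgroup.zpowers a, t ≠ 1 → ∀ g : PSL F, g⁻¹ * t * g ∈ Subgroup.zpowers a →
      (g ∈ Subgroup.zpowers a ∧ g⁻¹ * t * g = t) ∨
      (g * s ∈ Subgroup.zpowers a ∧ g⁻¹ * t * g = t⁻¹) := by
  obtain ⟨a, s, ha, hs, hsa, hneg, hcent, hTI⟩ := exists_torus_TI F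
  have hq : 1 < Fintype.card F := Fintype.one_lt_card
  have hss : pr F s * pr F s = 1 := by
    rw [← map_mul, hs, pr_eq_one_iff]
    exact Or.inr rfl
  have hsinv : (pr F s)⁻¹ = pr F s := inv_eq_of_mul_eq_one_left hss
  have hsr : pr F s * pr F a * pr F s = (pr F a)⁻¹ := by
    rw [← map_inv, ← hsa, map_mul, map_mul, map_inv, hsinv]
  have hsT : s ∉ Subgroup.zpowers a := by
    intro h
    obtain ⟨k, hk⟩ := h
    have hk : a ^ k = s := hk
    have h1 : s⁻¹ * a * s = a := by
      rw [← hk, mul_assoc, ← _root_.zpow_one_add, add_comm, _root_.zpow_add, _root_.zpow_one, inv_mul_cancel_left]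
    rw [h1] at hsa
    have h2 : a ^ 2 = 1 := by
      rw [pow_two]
      nth_rewrite 1 [hsa]
      exact inv_mul_cancel a
    have h3 := Nat.le_of_dvd (by norm_num) (orderOf_dvd_of_pow_eq_one h2)
    rw [ha] at h3
    omega
  have hmem : ∀ g : SpecialLinearGroup (Fin 2) F, pr F g ∈ Subgroup.zpowers (pr F a) →
      g ∈ Subgroup.zpowers a := by
    rintro g ⟨k, hk⟩
    have hk : (pr F a) ^ k = pr F g := hk
    rw [← map_zpow] at hk
    rcases (pr_eq_iff _ _).mp hk.symm with h | h
    · rw [h]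
      exact Subgroup.zpow_mem_zpowers a k
    · rw [h, ← neg_one_mul]
      exact mul_mem hneg (Subgroup.zpow_mem_zpowers a k)
  have hmem' : ∀ g : SpecialLinearGroup (Fin 2) F, g ∈ Subgroup.zpowers a →
      pr F g ∈ Subgroup.zpowers (pr F a) := by
    rintro g ⟨k, rfl⟩
    change pr F (a ^ k) ∈ _
    rw [map_zpow]
    exact Subgroup.zpow_mem_zpowers _ k
  refine ⟨pr F a, pr F s, orderOf_pr a ha hneg, hss, hsr, fun h => hsT (hmem s h), ?_⟩
  intro t ht ht1 g hg
  obtain ⟨g, rfl⟩ := pr_surjective F g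
  obtain ⟨t, rfl⟩ := pr_surjective F t
  rw [← map_inv, ← map_mul, ← map_mul] at hg
  rw [Ne, pr_eq_one_iff, not_or] at ht1
  rcases hTI t (hmem t ht) ht1.1 ht1.2 g (hmem _ hg) with ⟨h3, h4⟩ | ⟨h3, h4⟩
  · left
    refine ⟨hmem' g h3, ?_⟩
    rw [← map_inv, ← map_mul, ← map_mul, h4]
  · right
    constructor
    · have := hmem' _ h3
      rwa [map_mul, map_inv, hsinv] at this
    · rw [← map_inv, ← map_mul, ← map_mul, h4, map_inv]

/-- the data of a non-split torus -/
structure Tor (a s : PSL F) (m : ℕ) : Prop where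
  ord : orderOf a = m
  ss : s * s = 1
  inv : s * a * s = a⁻¹
  nmem : s ∉ Subgroup.zpowers a
  ti : ∀ t ∈ Subgroup.zpowers a, t ≠ 1 → ∀ g : PSL F, g⁻¹ * t * g ∈ Subgroup.zpowers a →
      (g ∈ Subgroup.zpowers a ∧ g⁻¹ * t * g = t) ∨
      (g * s ∈ Subgroup.zpowers a ∧ g⁻¹ * t * g = t⁻¹)

namespace Tor

omit [DecidableEq F]

variable {a s : PSL F} {m : ℕ} (T : Tor a s m)
include T

theorem s_inv : s⁻¹ = s := inv_eq_of_mul_eq_one_left T.ss

theorem conj_s {t : PSL F} (ht : t ∈ Subgroup.zpowers a) : s * t * s⁻¹ = t⁻¹ := by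
  obtain ⟨k, rfl⟩ := ht
  change s * a ^ k * s⁻¹ = (a ^ k)⁻¹
  rw [← conj_zpow, T.s_inv, T.inv, _root_.inv_zpow]

theorem s_mem : s ∈ Subgroup.normalizer (Subgroup.zpowers a : Set (PSL F)) := by
  rw [Subgroup.mem_normalizer_iff]
  intro t
  constructor
  · intro ht
    rw [T.conj_s ht]
    exact inv_mem ht
  · intro ht
    have h1 := T.conj_s ht
    have h2 : s * (s * t * s⁻¹) * s⁻¹ = t := by
      rw [T.s_inv]
      calc s * (s * t * s) * s = (s * s) * t * (s * s) := by group
        _ = t := by rw [T.ss, one_mul, mul_one]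
    rw [h2] at h1
    rw [h1]
    exact inv_mem ht

theorem mem_normalizer_of {t : PSL F} (ht : t ∈ Subgroup.zpowers a) (h1 : t ≠ 1) {g : PSL F}
    (hg : g⁻¹ * t * g ∈ Subgroup.zpowers a) :
    g ∈ Subgroup.normalizer (Subgroup.zpowers a : Set (PSL F)) := by
  rcases T.ti t ht h1 g hg with ⟨h, -⟩ | ⟨h, -⟩
  · exact Subgroup.le_normalizer h
  · have h2 : g = g * s * s := by rw [mul_assoc, T.ss, mul_one]
    rw [h2]
    exact mul_mem (Subgroup.le_normalizer h) T.s_mem

theorem mem_normalizer_iff (hm : 2 ≤ m) {g : PSL F} :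
    g ∈ Subgroup.normalizer (Subgroup.zpowers a : Set (PSL F)) ↔
      g ∈ Subgroup.zpowers a ∨ g * s ∈ Subgroup.zpowers a := by
  have ha1 : a ≠ 1 := by
    intro h
    have := T.ord
    rw [h, orderOf_one] at this
    omega
  constructor
  · intro hg
    have h1 := (Subgroup.mem_normalizer_iff.1 (inv_mem hg) a).1 (Subgroup.mem_zpowers a)
    rw [inv_inv] at h1
    rcases T.ti a (Subgroup.mem_zpowers a) ha1 g h1 with ⟨h, -⟩ | ⟨h, -⟩
    · exact Or.inl h
    · exact Or.inr h
  · rintro (h | h)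
    · exact Subgroup.le_normalizer h
    · have h2 : g = g * s * s := by rw [mul_assoc, T.ss, mul_one]
      rw [h2]
      exact mul_mem (Subgroup.le_normalizer h) T.s_mem

theorem card_normalizer [Finite F] (hm : 2 ≤ m) :
    Nat.card (Subgroup.normalizer (Subgroup.zpowers a : Set (PSL F))) = 2 * m := by
  have hind : ((Subgroup.zpowers a).subgroupOf
      (Subgroup.normalizer (Subgroup.zpowers a : Set (PSL F)))).index = 2 := by
    rw [Subgroup.index_eq_two_iff]
    refine ⟨⟨s, T.s_mem⟩, ?_⟩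
    rintro ⟨x, hx⟩
    rw [Subgroup.mem_subgroupOf, Subgroup.mem_subgroupOf]
    show Xor (x * s ∈ Subgroup.zpowers a) (x ∈ Subgroup.zpowers a)
    have hnot : ¬ (x * s ∈ Subgroup.zpowers a ∧ x ∈ Subgroup.zpowers a) := by
      rintro ⟨h1, h2⟩
      apply T.nmem
      have := mul_mem (inv_mem h2) h1
      rwa [inv_mul_cancel_left] at this
    rcases (T.mem_normalizer_iff hm).1 hx with h | h
    · exact Or.inr ⟨h, fun h' => hnot ⟨h', h⟩⟩
    · exact Or.inl ⟨h, fun h' => hnot ⟨h, h'⟩⟩
  have h3 := Subgroup.card_mul_index ((Subgroup.zpowers a).subgroupOf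
      (Subgroup.normalizer (Subgroup.zpowers a : Set (PSL F))))
  rw [hind, Nat.card_congr (Subgroup.subgroupOfEquivOfLe Subgroup.le_normalizer).toEquiv,
    Nat.card_zpowers, T.ord] at h3
  omega

/-- the centralizer of a torus element which is not an involution -/
theorem centralizer_eq {t : PSL F} (ht : t ∈ Subgroup.zpowers a) (h1 : t ≠ 1) (h2 : t * t ≠ 1) :
    Subgroup.centralizer ({t} : Set (PSL F)) = Subgroup.zpowers a := by
  apply le_antisymm
  · intro g hg
    rw [Subgroup.mem_centralizer_singleton_iff] at hg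
    have h3 : g⁻¹ * t * g = t := by rw [mul_assoc, ← hg, inv_mul_cancel_left]
    rcases T.ti t ht h1 g (by rw [h3]; exact ht) with ⟨h, -⟩ | ⟨-, h⟩
    · exact h
    · exfalso
      apply h2
      rw [h3] at h
      nth_rewrite 1 [h]
      exact inv_mul_cancel t
  · intro g hg
    rw [Subgroup.mem_centralizer_singleton_iff]
    obtain ⟨k, rfl⟩ := hg
    obtain ⟨j, rfl⟩ := ht
    change a ^ k * a ^ j = a ^ j * a ^ k
    rw [← _root_.zpow_add, ← _root_.zpow_add, add_comm]

end Tor

/-! ### All fixed-point-free elements are conjugate into the torus -/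

theorem two_transitive : IsMultiplyPretransitive (PSL F) (OnePoint F) 2 := by
  rw [is_two_pretransitive_iff]
  intro a b c d hab hcd
  exact trans hab hcd

theorem card_fixedBy_le [Finite F] (g : PSL F) (hg : g ≠ 1) :
    Nat.card (fixedBy (OnePoint F) g) ≤ 2 := by
  by_contra hcon
  push Not at hcon
  rw [Nat.card_coe_set_eq, Set.two_lt_ncard (Set.toFinite _)] at hcon
  obtain ⟨a, ha, b, hb, c, hc, hab, hac, hbc⟩ := hcon
  exact hg (three hab hac hbc ha hb hc)

theorem two_mul_card_free [Fintype F] :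
    2 * Nat.card {g : PSL F // ∀ x : OnePoint F, g • x ≠ x} +
      Fintype.card F * (Fintype.card F - 1) = Nat.card (PSL F) := by
  haveI := finite_psl F
  have h1 := LieExceptional.SuzukiTori.two_mul_card_free (G := PSL F) (Ω := OnePoint F)
    (by rw [card_onePoint]; have := Fintype.one_lt_card (α := F); omega) two_transitive card_fixedBy_le
  rw [card_onePoint] at h1
  have h2 : Nat.card {g : PSL F | Nat.card (fixedBy (OnePoint F) g) = 0} =
      Nat.card {g : PSL F // ∀ x : OnePoint F, g • x ≠ x} := by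
    apply Nat.card_congr
    apply Equiv.subtypeEquivRight
    intro g
    show Nat.card (fixedBy (OnePoint F) g) = 0 ↔ _
    rw [Finite.card_eq_zero_iff, Set.isEmpty_coe_sort, Set.eq_empty_iff_forall_notMem]
    rfl
  rw [h2] at h1
  exact h1

/-- orders: `|G| = q (q - 1) m = (q + 1) q d` with `m = (q + 1) / (2, q - 1)`, `d = (q - 1) / (2, q - 1)` -/
structure Ord (F : Type*) [Field F] [Fintype F] (m d : ℕ) : Prop where
  q_lt : 1 < Fintype.card F
  hm : m = (Fintype.card F + 1) / Nat.gcd 2 (Fintype.card F - 1)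
  two_le : 2 ≤ m
  d_pos : 1 ≤ d
  card1 : Nat.card (PSL F) = Fintype.card F * (Fintype.card F - 1) * m
  card2 : Nat.card (PSL F) = (Fintype.card F + 1) * (Fintype.card F * d)
  cop_d : Nat.Coprime m d
  cop_q : Nat.Coprime m (Fintype.card F)

omit [DecidableEq F] in
theorem ord_even [Fintype F] (h : Even (Fintype.card F)) :
    Ord F (Fintype.card F + 1) (Fintype.card F - 1) := by
  have hq : 1 < Fintype.card F := Fintype.one_lt_card
  have hc := ClassicalGeometry.PSL2Basic.card_PSL2_even F h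
  have hg : Nat.gcd 2 (Fintype.card F - 1) = 1 := by
    rw [← Nat.coprime_iff_gcd_eq_one, Nat.coprime_two_left, Nat.odd_iff]
    rw [Nat.even_iff] at h
    omega
  obtain ⟨k, hk⟩ : ∃ k, Fintype.card F = k + 1 := ⟨Fintype.card F - 1, by omega⟩
  have h0 : (k + 1) ^ 2 - 1 = k * (k + 2) := by
    apply Nat.sub_eq_of_eq_add
    ring
  rw [hk] at hc h hg hq ⊢
  rw [h0] at hc
  rw [Nat.add_sub_cancel] at hg ⊢
  refine ⟨hk ▸ hq, ?_, by omega, by omega, ?_, ?_, ?_, ?_⟩
  · rw [hk, Nat.add_sub_cancel, hg, Nat.div_one]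
  · rw [hk, Nat.add_sub_cancel]
    rw [hc]; ring
  · rw [hk]
    rw [hc]; ring
  · rw [Nat.even_iff] at h
    have : Nat.Coprime (k + 2) k := by
      rw [Nat.coprime_self_add_left, Nat.coprime_two_left, Nat.odd_iff]
      omega
    exact this
  · rw [hk]
    exact (Nat.coprime_self_add_left.2 (Nat.coprime_one_left _) : Nat.Coprime ((k + 1) + 1) (k + 1))

omit [DecidableEq F] in
theorem ord_odd [Fintype F] (h : Odd (Fintype.card F)) :
    Ord F ((Fintype.card F + 1) / 2) ((Fintype.card F - 1) / 2) := by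
  have hq : 1 < Fintype.card F := Fintype.one_lt_card
  have hc := ClassicalGeometry.PSL2Basic.card_PSL2_odd F h
  obtain ⟨k, hk⟩ := h
  have hg : Nat.gcd 2 (Fintype.card F - 1) = 2 := by
    apply Nat.gcd_eq_left
    omega
  have e1 : (Fintype.card F + 1) / 2 = k + 1 := by omega
  have e2 : (Fintype.card F - 1) / 2 = k := by omega
  have e3 : Fintype.card F - 1 = 2 * k := by omega
  have h0 : (2 * k + 1) ^ 2 - 1 = 4 * k * (k + 1) := by
    apply Nat.sub_eq_of_eq_add
    ring
  rw [hk, h0] at hc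
  have hc' : Nat.card (PSL F) = (2 * k + 1) * (2 * k * (k + 1)) := by
    apply Nat.eq_of_mul_eq_mul_right (show 0 < 2 by norm_num)
    rw [hc]; ring
  rw [e1, e2]
  refine ⟨hq, ?_, by omega, by omega, ?_, ?_, ?_, ?_⟩
  · rw [hg, e1]
  · rw [hc', e3, hk]; ring
  · rw [hc', hk]; ring
  · exact (Nat.coprime_self_add_left.2 (Nat.coprime_one_left _) : Nat.Coprime (k + 1) k)
  · rw [hk]
    have : 2 * k + 1 = k + (k + 1) := by ring
    rw [this, Nat.coprime_add_self_right]
    exact (Nat.coprime_self_add_left.2 (Nat.coprime_one_left _) : Nat.Coprime (k + 1) k)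

/-- the order of a point stabiliser -/
theorem card_stabilizer [Fintype F] {m d : ℕ} (hO : Ord F m d) (a : OnePoint F) :
    Nat.card (stabilizer (PSL F) a) = Fintype.card F * d := by
  haveI := finite_psl F
  haveI : IsPretransitive (PSL F) (OnePoint F) := by
    constructor
    intro x y
    obtain ⟨g, hg⟩ := exists_smul_infty x
    obtain ⟨h, hh⟩ := exists_smul_infty y
    exact ⟨h * g⁻¹, by rw [mul_smul, ← hg, inv_smul_smul, hh]⟩
  have h1 := MulAction.index_stabilizer_of_transitive (PSL F) a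
  have h2 := Subgroup.card_mul_index (stabilizer (PSL F) a)
  rw [h1, card_onePoint, hO.card2, mul_comm] at h2
  exact Nat.eq_of_mul_eq_mul_left (by omega) h2

/-- non-identity torus elements are fixed-point-free -/
theorem Tor.free [Fintype F] {m d : ℕ} (hO : Ord F m d) {a s : PSL F} (T : Tor a s m) {t : PSL F}
    (ht : t ∈ Subgroup.zpowers a) (h1 : t ≠ 1) : ∀ x : OnePoint F, t • x ≠ x := by
  intro x hx
  have h2 : orderOf t ∣ m := by
    have := orderOf_dvd_natCard (⟨t, ht⟩ : Subgroup.zpowers a)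
    rwa [Subgroup.orderOf_mk, Nat.card_zpowers, T.ord] at this
  have h3 : orderOf t ∣ Fintype.card F * d := by
    rw [← card_stabilizer hO x]
    have hmem : t ∈ stabilizer (PSL F) x := hx
    have := orderOf_dvd_natCard (⟨t, hmem⟩ : stabilizer (PSL F) x)
    rwa [Subgroup.orderOf_mk] at this
  have h4 : Nat.Coprime m (Fintype.card F * d) := Nat.Coprime.mul_right hO.cop_q hO.cop_d
  have h5 := Nat.dvd_gcd h2 h3
  rw [h4] at h5
  exact h1 (orderOf_eq_one_iff.1 (Nat.dvd_one.1 h5))

theorem free_conj {t g : PSL F} (h : ∀ x : OnePoint F, t • x ≠ x) :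
    ∀ x : OnePoint F, (g * t * g⁻¹) • x ≠ x := by
  intro x hx
  apply h (g⁻¹ • x)
  rw [mul_smul, mul_smul] at hx
  rw [eq_inv_smul_iff]
  exact hx

/-- **Every fixed-point-free element is conjugate into the torus.** -/
theorem Tor.exists_conj [Fintype F] {m d : ℕ} (hO : Ord F m d) {a s : PSL F} (T : Tor a s m)
    {t : PSL F} (ht : ∀ x : OnePoint F, t • x ≠ x) : ∃ y : PSL F, y⁻¹ * t * y ∈ Subgroup.zpowers a := by
  haveI := finite_psl F
  have hTI : ∀ y : PSL F, ∀ c ∈ Subgroup.zpowers a, c ≠ 1 → y * c * y⁻¹ ∈ Subgroup.zpowers a →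
      y ∈ Subgroup.normalizer (Subgroup.zpowers a : Set (PSL F)) := by
    intro y c hc h1 h
    have h2 := T.mem_normalizer_of hc h1 (g := y⁻¹) (by rwa [inv_inv])
    exact inv_mem_iff.1 h2
  have h1 := LieExceptional.SuzukiTori.card_tset (Subgroup.zpowers a) hTI
  rw [T.card_normalizer hO.two_le, Nat.card_zpowers, T.ord, hO.card1] at h1
  have h2 := two_mul_card_free (F := F)
  rw [hO.card1] at h2
  have hsub : LieExceptional.SuzukiTori.tset (Subgroup.zpowers a) ⊆
      {g : PSL F | ∀ x : OnePoint F, g • x ≠ x} := by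
    rintro g ⟨hg1, y, hy⟩
    have h3 : y⁻¹ * g * y ≠ 1 := by
      intro h3
      apply hg1
      have : g = y * (y⁻¹ * g * y) * y⁻¹ := by group
      rw [this, h3, mul_one, mul_inv_cancel]
    have h4 := free_conj (g := y) (T.free hO hy h3)
    have h5 : y * (y⁻¹ * g * y) * y⁻¹ = g := by group
    rwa [h5] at h4
  have hcard : Nat.card (LieExceptional.SuzukiTori.tset (Subgroup.zpowers a)) =
      Nat.card {g : PSL F | ∀ x : OnePoint F, g • x ≠ x} := by
    have h2' : 2 * Nat.card {g : PSL F | ∀ x : OnePoint F, g • x ≠ x} +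
      Fintype.card F * (Fintype.card F - 1) = Fintype.card F * (Fintype.card F - 1) * m := h2
    have hm := hO.two_le
    obtain ⟨k, rfl⟩ : ∃ k, m = k + 1 := ⟨m - 1, by omega⟩
    rw [Nat.add_sub_cancel] at h1
    have e1 : 2 * Nat.card {g : PSL F | ∀ x : OnePoint F, g • x ≠ x} =
        Fintype.card F * (Fintype.card F - 1) * k := by
      have : Fintype.card F * (Fintype.card F - 1) * (k + 1) =
        Fintype.card F * (Fintype.card F - 1) * k + Fintype.card F * (Fintype.card F - 1) := by ring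
      omega
    have e2 : (2 * (k + 1)) * Nat.card (LieExceptional.SuzukiTori.tset (Subgroup.zpowers a)) =
        (2 * (k + 1)) * Nat.card {g : PSL F | ∀ x : OnePoint F, g • x ≠ x} := by
      calc (2 * (k + 1)) * Nat.card (LieExceptional.SuzukiTori.tset (Subgroup.zpowers a))
          = Fintype.card F * (Fintype.card F - 1) * (k + 1) * k := by rw [← h1]; ring
        _ = (k + 1) * (2 * Nat.card {g : PSL F | ∀ x : OnePoint F, g • x ≠ x}) := by rw [e1]; ring
        _ = _ := by ring
    exact Nat.eq_of_mul_eq_mul_left (by omega) e2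
  have heq := Set.eq_of_subset_of_ncard_le hsub (by
    rw [← Nat.card_coe_set_eq, ← Nat.card_coe_set_eq, hcard]) (Set.toFinite _)
  have hmem : t ∈ LieExceptional.SuzukiTori.tset (Subgroup.zpowers a) := by
    rw [heq]
    exact ht
  exact hmem.2

/-- the non-split torus exists -/
theorem exists_tor [Fintype F] {m d : ℕ} (hO : Ord F m d) : ∃ a s : PSL F, Tor a s m := by
  obtain ⟨a, s, h1, h2, h3, h4, h5⟩ := exists_torus' (F := F)
  exact ⟨a, s, ⟨h1.trans hO.hm.symm, h2, h3, h4, h5⟩⟩

/-- Conjugates of a torus. -/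
theorem Tor.conj {a s : PSL F} {m : ℕ} (T : Tor a s m) (g : PSL F) :
    Tor (g * a * g⁻¹) (g * s * g⁻¹) m := by
  have hz : ∀ t : PSL F, t ∈ Subgroup.zpowers (g * a * g⁻¹) ↔ g⁻¹ * t * g ∈ Subgroup.zpowers a := by
    intro t
    constructor
    · rintro ⟨k, rfl⟩
      refine ⟨k, ?_⟩
      change a ^ k = g⁻¹ * (g * a * g⁻¹) ^ k * g
      rw [conj_zpow]
      group
    · rintro ⟨k, hk⟩
      refine ⟨k, ?_⟩
      change (g * a * g⁻¹) ^ k = t
      have hk : a ^ k = g⁻¹ * t * g := hk
      rw [conj_zpow, hk]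
      group
  refine ⟨?_, ?_, ?_, ?_, ?_⟩
  · rw [← T.ord]
    exact (MulAut.conj g).orderOf_eq a
  · calc g * s * g⁻¹ * (g * s * g⁻¹) = g * (s * s) * g⁻¹ := by group
      _ = 1 := by rw [T.ss]; group
  · calc g * s * g⁻¹ * (g * a * g⁻¹) * (g * s * g⁻¹) = g * (s * a * s) * g⁻¹ := by group
      _ = (g * a * g⁻¹)⁻¹ := by rw [T.inv]; group
  · rw [hz]
    have : g⁻¹ * (g * s * g⁻¹) * g = s := by group
    rw [this]
    exact T.nmem
  · intro t ht ht1 x hx
    rw [hz] at ht hx
    have ht1' : g⁻¹ * t * g ≠ 1 := by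
      intro h3
      apply ht1
      have : t = g * (g⁻¹ * t * g) * g⁻¹ := by group
      rw [this, h3, mul_one, mul_inv_cancel]
    have e : (g⁻¹ * x * g)⁻¹ * (g⁻¹ * t * g) * (g⁻¹ * x * g) = g⁻¹ * (x⁻¹ * t * x) * g := by group
    rcases T.ti (g⁻¹ * t * g) ht ht1' (g⁻¹ * x * g) (by rw [e]; exact hx) with ⟨h3, h4⟩ | ⟨h3, h4⟩
    · left
      refine ⟨(hz x).2 h3, ?_⟩
      rw [e] at h4
      exact mul_left_cancel (mul_right_cancel h4)
    · right
      refine ⟨(hz _).2 ?_, ?_⟩
      · have : g⁻¹ * (x * (g * s * g⁻¹)) * g = g⁻¹ * x * g * s := by group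
        rw [this]
        exact h3
      · rw [e] at h4
        have h5 : g⁻¹ * (x⁻¹ * t * x) * g = g⁻¹ * t⁻¹ * g := by rw [h4]; group
        exact mul_left_cancel (mul_right_cancel h5)

/-- Every fixed-point-free element lies in a non-split torus. -/
theorem exists_tor_of_free [Fintype F] {m d : ℕ} (hO : Ord F m d) {t : PSL F}
    (ht : ∀ x : OnePoint F, t • x ≠ x) : ∃ a s : PSL F, Tor a s m ∧ t ∈ Subgroup.zpowers a := by
  obtain ⟨a, s, T⟩ := exists_tor hO
  obtain ⟨y, k, hk⟩ := T.exists_conj hO ht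
  refine ⟨y * a * y⁻¹, y * s * y⁻¹, T.conj y, k, ?_⟩
  have hk : a ^ k = y⁻¹ * t * y := hk
  change (y * a * y⁻¹) ^ k = t
  rw [conj_zpow, hk]
  group

end Cfsg.Agent.H102.PslAct
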